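import Mathlib
import Cfsg.Agent.Lib.Blk.BF
import Cfsg.Agent.Lib.Block.Second
import Cfsg.Agent.Lib.Block.Span

/-!
# Robinson's matrix counting blocks with a given defect group
-/

namespace CfsgLib.Block

open Cfsg MonoidAlgebra CfsgLib.Char CfsgLib.Blk CfsgLib.Fusion
open CfsgLib.BrPair (cS Cz Ce br mem_cS)
open scoped ComplexConjugate

section Lin

theorem rank_map_field {F E n : Type*} [Field F] [Field E] [Fintype n] [DecidableEq n]
    (f : F →+* E) (A : Matrix n n F) : (A.map f).rank = A.rank := by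
  classical
  obtain ⟨L, L', D, h⟩ := Matrix.Pivot.exists_list_transvec_mul_diagonal_mul_list_transvec A
  set U := (L.map Matrix.TransvectionStruct.toMatrix).prod
  set V := (L'.map Matrix.TransvectionStruct.toMatrix).prod
  have hU : U.det = 1 := Matrix.TransvectionStruct.det_toMatrix_prod L
  have hV : V.det = 1 := Matrix.TransvectionStruct.det_toMatrix_prod L'
  have hU' : (U.map f).det = 1 := by
    have := f.map_det U
    rw [hU, map_one] at this
    exact this.symm
  have hV' : (V.map f).det = 1 := by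
    have := f.map_det V
    rw [hV, map_one] at this
    exact this.symm
  have h2 : A.map f = U.map f * Matrix.diagonal (fun i => f (D i)) * V.map f := by
    rw [h, Matrix.map_mul, Matrix.map_mul, Matrix.diagonal_map (map_zero f)]
  rw [h2, Matrix.rank_mul_eq_left_of_det_ne_zero _ _ (by rw [hV']; exact one_ne_zero),
    Matrix.rank_mul_eq_right_of_det_ne_zero _ _ (by rw [hU']; exact one_ne_zero),
    Matrix.rank_diagonal]
  conv_rhs => rw [h]
  rw [Matrix.rank_mul_eq_left_of_det_ne_zero _ _ (by rw [hV]; exact one_ne_zero),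
    Matrix.rank_mul_eq_right_of_det_ne_zero _ _ (by rw [hU]; exact one_ne_zero),
    Matrix.rank_diagonal]
  exact Fintype.card_congr (Equiv.subtypeEquivRight fun i => by simp)

theorem exists_rows_of_det_ne_zero {F n β : Type*} [Field F] [Fintype n] [DecidableEq n]
    [Fintype β] (X : Matrix n β F) (W : Matrix β n F) (h : (X * W).det ≠ 0) :
    ∃ f : n → β, Function.Injective f ∧ (Matrix.of fun i j => W (f i) j).det ≠ 0 := by
  classical
  by_contra hc
  push Not at hc
  apply h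
  have e : X * W = Matrix.of fun i => ∑ b, X i b • W b := by
    ext i j
    simp [Matrix.mul_apply, Finset.sum_apply]
  have e2 : (X * W).det = Matrix.detRowAlternating (fun i => ∑ b, X i b • W b) := by
    rw [e]; rfl
  rw [e2]
  have e3 := (Matrix.detRowAlternating (n := n) (R := F)).toMultilinearMap.map_sum
    (g := fun i b => X i b • W b)
  erw [e3]
  refine Finset.sum_eq_zero fun f _ => ?_
  have e4 := (Matrix.detRowAlternating (n := n) (R := F)).toMultilinearMap.map_smul_univ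
    (fun i => X i (f i)) (fun i => W (f i))
  erw [e4]
  have : (Matrix.of fun i j => W (f i) j).det = 0 := by
    by_cases hf : Function.Injective f
    · exact hc f hf
    · obtain ⟨i, j, hij, hne⟩ := Function.not_injective_iff.1 hf
      exact Matrix.det_zero_of_row_eq hne (by ext k; simp [hij])
  have e5 : (Matrix.detRowAlternating (n := n) (R := F)).toMultilinearMap (fun i => W (f i)) = 0 :=
    this
  rw [e5, smul_zero]

theorem rank_eq_card_of_factor {F n β : Type*} [Field F] [Fintype n] [DecidableEq n]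
    [Fintype β] [DecidableEq β] (U : Matrix n β F) (W : Matrix β n F) (t : β → F)
    (ht : ∀ b, t b ≠ 0) (U' : Matrix β n F) (W' : Matrix n β F) (hU : U' * U = 1)
    (hW : W * W' = 1) : (U * Matrix.diagonal t * W).rank = Fintype.card β := by
  classical
  apply le_antisymm
  · exact (Matrix.rank_mul_le_right _ _).trans (Matrix.rank_le_card_height _)
  · have h1 : U' * (U * Matrix.diagonal t * W) * W' = Matrix.diagonal t := by
      rw [← Matrix.mul_assoc, ← Matrix.mul_assoc, hU, Matrix.one_mul, Matrix.mul_assoc, hW,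
        Matrix.mul_one]
    have h2 : (Matrix.diagonal t).rank = Fintype.card β := by
      apply Matrix.rank_of_det_ne_zero
      rw [Matrix.det_diagonal]
      exact Finset.prod_ne_zero_iff.2 fun b _ => ht b
    calc Fintype.card β = (U' * (U * Matrix.diagonal t * W) * W').rank := by rw [h1, h2]
      _ ≤ _ := (Matrix.rank_mul_le_left _ _).trans (Matrix.rank_mul_le_right _ _)

end Lin

variable {G : Type*} [Group G] [Fintype G] {p : ℕ} {M : Ideal AlgInt}

/-- the number of pairs in `cl(x) × cl(y)` with quotient in `S`. -/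
noncomputable def cnt (S : Subgroup G) (x y : G) : ℕ :=
  Nat.card {yz : G × G // IsConj x yz.1 ∧ IsConj y yz.2 ∧ yz.2 * yz.1⁻¹ ∈ S}

omit [Fintype G] in
theorem isConj_inv_inv_rb {x y : G} : IsConj x⁻¹ y⁻¹ ↔ IsConj x y := by
  constructor
  · intro h
    obtain ⟨c, hc⟩ := isConj_iff.1 h
    exact isConj_iff.2 ⟨c, by rw [← inv_inj, ← hc]; group⟩
  · intro h
    obtain ⟨c, hc⟩ := isConj_iff.1 h
    exact isConj_iff.2 ⟨c, by rw [← hc]; group⟩

open Classical in
theorem cnt_eq_sum_coeff (S : Subgroup G) (x y : G) :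
    (cnt S x y : ℂ) = ∑ s : S, (classSum ℂ y * classSum ℂ x⁻¹).coeff (s : G) := by
  have h1 : ∀ s : G, (classSum ℂ y * classSum ℂ x⁻¹).coeff s =
      ∑ u : G, if IsConj x u ∧ IsConj y (s * u) then (1 : ℂ) else 0 := by
    intro s
    rw [coeff_mul_right, ← Equiv.sum_comp (Equiv.inv G)]
    refine Finset.sum_congr rfl fun u _ => ?_
    simp only [coeff_classSum, Equiv.inv_apply, inv_inv, isConj_inv_inv_rb]
    by_cases h1 : IsConj x u <;> by_cases h2 : IsConj y (s * u) <;>
      simp only [h1, h2, if_true, if_false, mul_one, mul_zero, and_self, and_false, false_and]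
  simp only [h1]
  rw [← Finset.sum_product', Finset.univ_product_univ, Finset.sum_boole]
  rw [cnt, ← Fintype.card_subtype, ← Nat.card_eq_fintype_card]
  congr 1
  refine Nat.card_congr
    { toFun := fun a => ⟨(⟨a.1.2 * a.1.1⁻¹, a.2.2.2⟩, a.1.1), a.2.1, by simpa using a.2.2.1⟩
      invFun := fun a => ⟨(a.1.2, a.1.1 * a.1.2), a.2.1, a.2.2, by simp⟩
      left_inv := fun a => by ext <;> simp
      right_inv := fun a => by ext <;> simp }

open Classical in
theorem exists_msum (S : Subgroup G) : ∃ m : IrrCharacter G → ℕ, ∀ χ : IrrCharacter G,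
    ∑ s : S, conj ((χ : G → ℂ) s) = (Nat.card S : ℂ) * m χ := by
  have h : ∀ χ : IrrCharacter G, ∃ m : ℕ,
      ∑ s : S, conj ((χ : G → ℂ) s) = (Nat.card S : ℂ) * m := by
    intro χ
    obtain ⟨m, hm⟩ := exists_classInner_eq_nat (irr_isCharacter (irrOne S))
      (isCharacter_restrict S (irr_isCharacter χ))
    refine ⟨m, ?_⟩
    rw [← hm, card_mul_classInner]
    refine Finset.sum_congr rfl fun s _ => ?_
    change _ = 1 * _
    rw [one_mul]
  choose m hm using h
  exact ⟨m, hm⟩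

open Classical in
theorem cnt_eq_sum_irr (S : Subgroup G) {m : IrrCharacter G → ℕ}
    (hm : ∀ χ : IrrCharacter G, ∑ s : S, conj ((χ : G → ℂ) s) = (Nat.card S : ℂ) * m χ)
    (x y : G) : (cnt S x y : ℂ) = (Nat.card S : ℂ) * (Nat.card (Ce y) : ℂ)⁻¹ *
      ∑ χ : IrrCharacter G, (χ : G → ℂ) y * centralChar (χ : G → ℂ) x⁻¹ * m χ := by
  rw [cnt_eq_sum_coeff]
  have hz : classSum ℂ y * classSum ℂ x⁻¹ ∈ Z ℂ G :=
    (Z ℂ G).mul_mem (classSum_mem_Z _) (classSum_mem_Z _)
  simp only [coeff_eq_sum_omega hz]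
  rw [← Finset.mul_sum, Finset.sum_comm, Finset.mul_sum, Finset.mul_sum]
  refine Finset.sum_congr rfl fun χ _ => ?_
  rw [← Finset.mul_sum, ← Finset.mul_sum, hm, omega_mul χ.2 (classSum_mem_Z _),
    omega_classSum (irr_isClassFunction χ), omega_classSum (irr_isClassFunction χ)]
  have h0 : (χ : G → ℂ) 1 ≠ 0 := irr_one_ne_zero χ.2
  have hc : (Nat.card G : ℂ) = (Nat.card (Ce y) : ℂ) * ((Ce y).index : ℂ) := by
    rw [← Nat.cast_mul, Subgroup.card_mul_index]
  have h1 : (Nat.card (Ce y) : ℂ) ≠ 0 := Nat.cast_ne_zero.2 Nat.card_pos.ne'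
  have h2 : ((Ce y).index : ℂ) ≠ 0 := Nat.cast_ne_zero.2 Subgroup.index_ne_zero_of_finite
  rw [hc]
  conv_lhs => rw [show centralChar (χ : G → ℂ) y = ((Ce y).index : ℂ) * (χ : G → ℂ) y /
    (χ : G → ℂ) 1 from rfl]
  field_simp

/-- the central character of a block, modulo `M`, on the class of `g`. -/
noncomputable def wB (hM : IsPModular p M) (B : Set (IrrCharacter G)) (g : G) : K hM :=
  open Classical in if h : B.Nonempty then red hM (centralChar (h.choose : G → ℂ) g) else 0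

theorem wB_eq (hM : IsPModular p M) {B : Set (IrrCharacter G)} (hB : IsPBlock M B)
    {χ : IrrCharacter G} (hχ : χ ∈ B) (g : G) :
    wB hM B g = red hM (centralChar (χ : G → ℂ) g) := by
  have h : B.Nonempty := ⟨χ, hχ⟩
  rw [wB, dif_pos h, ← lam_classSum hM h.choose.2, ← lam_classSum hM χ.2,
    lam_eq_of_mem hM hB h.choose_spec hχ]

theorem wB_eq_of_isConj (hM : IsPModular p M) {B : Set (IrrCharacter G)} (hB : IsPBlock M B)
    {g h : G} (H : IsConj g h) : wB hM B g = wB hM B h := by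
  obtain ⟨χ, hχ⟩ := IsPBlock_nonempty hM hB
  rw [wB_eq hM hB hχ, wB_eq hM hB hχ, centralChar_eq_of_isConj (irr_isClassFunction χ) H]

theorem exists_card_Ce [Fact p.Prime] {D : Subgroup G} {y : G} (hy : SylIn p D (Ce y)) :
    ∃ c : ℕ, ¬ p ∣ c ∧ Nat.card (Ce y) = Nat.card D * c := by
  refine ⟨D.relIndex (Ce y), hy.not_dvd_relIndex, ?_⟩
  rw [Subgroup.relIndex, ← Subgroup.card_mul_index (D.subgroupOf (Ce y)),
    Nat.card_congr (Subgroup.subgroupOfEquivOfLe hy.le).toEquiv]

/-- if the central character of `B` does not vanish on the class of `x`, then the defect groups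
of `B` are contained in conjugates of the defect group of the class. -/
theorem defect_le_of_wB [Fact p.Prime] (hM : IsPModular p M) {B : Set (IrrCharacter G)}
    (hB : IsPBlock M B) {D : Subgroup G} {d : ℕ} (hd : Nat.card D = p ^ d) {x : G}
    (hx : SylIn p D (Ce x)) (h : wB hM B x ≠ 0) :
    blockDefect p B ≤ d ∧ (d ≤ blockDefect p B → IsDefectGroup p M B D) := by
  obtain ⟨χ, hχ⟩ := IsPBlock_nonempty hM hB
  obtain ⟨E, hE⟩ := exists_isDefectGroup hM hB
  have h1 : ¬ MemLocalIdeal M (centralChar (χ : G → ℂ) x) := fun h' =>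
    h (by rw [wB_eq hM hB hχ, red_eq_zero_of_li hM h'])
  obtain ⟨g, hg⟩ := exists_cS_le_Ce hM hB hE hχ h1
  have hE' := isDefectGroup_cS hE g
  have hc := card_eq_pow_blockDefect hM hB hE'
  have hp1 : 1 < p := (Fact.out : p.Prime).one_lt
  refine ⟨?_, fun hle => ?_⟩
  · have := hx.card_le (isPGroup_of_isDefectGroup hE') hg
    rw [hc, hd] at this
    exact (Nat.pow_le_pow_iff_right hp1).1 this
  · have hs : SylIn p (cS g E) (Ce x) := hx.of_card_le (isPGroup_of_isDefectGroup hE') hg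
      (by rw [hc, hd]; exact Nat.pow_le_pow_right hp1.le hle)
    obtain ⟨y, -, hy⟩ := hx.exists_map_conj_eq hs
    rw [← hy]
    exact isDefectGroup_cS hE' y

open Classical in
theorem sum_rdeg_msum [Fact p.Prime] (hM : IsPModular p M) (S : Sylow p G)
    {m : IrrCharacter G → ℕ} (hm : ∀ χ : IrrCharacter G,
      ∑ s : (S : Subgroup G), conj ((χ : G → ℂ) s) = (Nat.card (S : Subgroup G) : ℂ) * m χ)
    {B : Set (IrrCharacter G)} (hB : IsPBlock M B) :
    ¬ p ∣ ∑ χ ∈ bf B, rdeg p B (χ : G → ℂ) * m χ := by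
  have hp : p.Prime := Fact.out
  obtain ⟨v, hv, hsum⟩ := exists_sum_rdeg_sq hM hB
  have hne := IsPBlock_nonempty hM hB
  have h0 : (Nat.card G : ℂ) ≠ 0 := Nat.cast_ne_zero.2 Nat.card_pos.ne'
  have h1 : ∑ s : (S : Subgroup G), blockCoeff B (s : G) = blockCoeff B 1 := by
    rw [Finset.sum_eq_single (1 : (S : Subgroup G))]
    · rfl
    · intro s _ hs
      apply blockCoeff_eq_zero_of_dvd hM hB
      obtain ⟨k, hk⟩ := IsPGroup.iff_orderOf.1 S.2 s
      rw [Subgroup.orderOf_coe, hk]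
      refine dvd_pow_self _ ?_
      rintro rfl
      exact hs (orderOf_eq_one_iff.1 (by simpa using hk))
    · intro h; exact (h (Finset.mem_univ _)).elim
  simp only [blockCoeff_bf] at h1
  rw [← Finset.mul_sum, Finset.sum_comm] at h1
  have h2 := mul_left_cancel₀ (inv_ne_zero h0) h1
  have hS : (Nat.card (S : Subgroup G) : ℂ) = (p : ℂ) ^ blockDefect p B * (p : ℂ) ^ minv p B := by
    rw [← pow_add, defect_add_minv hne, Sylow.card_eq_multiplicity]; push_cast; rfl
  have h3 : ∀ χ ∈ bf B, ∑ s : (S : Subgroup G), (χ : G → ℂ) 1 * conj ((χ : G → ℂ) s) =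
      ((p : ℂ) ^ blockDefect p B * (p : ℂ) ^ minv p B * (p : ℂ) ^ minv p B) *
        ((rdeg p B (χ : G → ℂ) * m χ : ℕ) : ℂ) := by
    intro χ hχ
    rw [← Finset.mul_sum, hm, hS, irr_one_eq_rdeg hp (mem_bf.1 hχ)]
    push_cast; ring
  have h4 : ∀ χ ∈ bf B, (χ : G → ℂ) 1 * conj ((χ : G → ℂ) 1) =
      ((p : ℂ) ^ minv p B * (p : ℂ) ^ minv p B) * ((rdeg p B (χ : G → ℂ) ^ 2 : ℕ) : ℂ) := by
    intro χ hχ
    rw [irr_one_eq_rdeg hp (mem_bf.1 hχ)]
    simp only [map_mul, map_pow, map_natCast]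
    push_cast; ring
  rw [Finset.sum_congr rfl h3, Finset.sum_congr rfl h4, ← Finset.mul_sum, ← Finset.mul_sum,
    ← Nat.cast_sum, ← Nat.cast_sum, hsum] at h2
  have hp0 : (p : ℂ) ≠ 0 := Nat.cast_ne_zero.2 hp.ne_zero
  have h5 : ((∑ χ ∈ bf B, rdeg p B (χ : G → ℂ) * m χ : ℕ) : ℂ) = v := by
    apply mul_left_cancel₀ (a := (p : ℂ) ^ blockDefect p B * (p : ℂ) ^ minv p B *
      (p : ℂ) ^ minv p B) (by positivity)
    rw [h2]; push_cast; ring
  rw [Nat.cast_inj.1 h5]
  exact hv

open Classical in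
theorem red_term [Fact p.Prime] (hM : IsPModular p M) (m : IrrCharacter G → ℕ)
    {B : Set (IrrCharacter G)} (hB : IsPBlock M B) {D : Subgroup G} {d : ℕ}
    (hd : Nat.card D = p ^ d) {x y : G} (hx : SylIn p D (Ce x)) (hy : SylIn p D (Ce y)) :
    MemLocalRing M ((p : ℂ) ^ d * (Nat.card (Ce y) : ℂ)⁻¹ *
      ∑ χ ∈ bf B, (χ : G → ℂ) y * centralChar (χ : G → ℂ) x * m χ) ∧
    red hM ((p : ℂ) ^ d * (Nat.card (Ce y) : ℂ)⁻¹ *
      ∑ χ ∈ bf B, (χ : G → ℂ) y * centralChar (χ : G → ℂ) x * m χ) =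
      if IsDefectGroup p M B D then wB hM B x * (((∑ χ ∈ bf B, rdeg p B (χ : G → ℂ) * m χ : ℕ) :
        K hM) * ((ppr p G : ℕ) : K hM)⁻¹) * wB hM B y else 0 := by
  have hp : p.Prime := Fact.out
  have hp0 : (p : ℂ) ≠ 0 := Nat.cast_ne_zero.2 hp.ne_zero
  have hne := IsPBlock_nonempty hM hB
  obtain ⟨c, hc, hcard⟩ := exists_card_Ce hy
  have hc0 : (c : ℂ) ≠ 0 := Nat.cast_ne_zero.2 (by rintro rfl; exact hc (dvd_zero _))
  have hu : (p : ℂ) ^ d * (Nat.card (Ce y) : ℂ)⁻¹ = (c : ℂ)⁻¹ := by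
    rw [hcard, hd]; push_cast; field_simp
  have hl : ∀ χ : IrrCharacter G,
      MemLocalRing M ((χ : G → ℂ) y * centralChar (χ : G → ℂ) x * m χ) := fun χ =>
    lr_mul hM (lr_mul hM (lr_irr hM χ y) (lr_centralChar hM χ.2 x)) (lr_natCast hM _)
  refine ⟨?_, ?_⟩
  · rw [hu]
    exact lr_mul hM (lr_inv_nat hM hc) (lr_sum hM fun χ _ => hl χ)
  by_cases hw : wB hM B x = 0
  · have : red hM ((p : ℂ) ^ d * (Nat.card (Ce y) : ℂ)⁻¹ *
        ∑ χ ∈ bf B, (χ : G → ℂ) y * centralChar (χ : G → ℂ) x * m χ) = 0 := by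
      rw [hu]
      apply red_eq_zero_of_li
      refine li_mul_left hM (lr_inv_nat hM hc) (li_sum hM fun χ hχ => ?_)
      refine li_mul_right hM (li_mul_left hM (lr_irr hM χ y) ?_) (lr_natCast hM _)
      rw [← red_eq_zero_iff hM (lr_centralChar hM χ.2 x), ← wB_eq hM hB (mem_bf.1 hχ), hw]
    rw [this, hw]
    split_ifs
    · rw [zero_mul, zero_mul]
    · rfl
  obtain ⟨hle, hdef⟩ := defect_le_of_wB hM hB hd hx hw
  obtain ⟨e, he⟩ := Nat.exists_eq_add_of_le hle
  have hg0 : ((ppr p G : ℕ) : ℂ) ≠ 0 := Nat.cast_ne_zero.2 (ppr_ne_zero hp)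
  have key : ∀ χ ∈ bf B, (p : ℂ) ^ d * (Nat.card (Ce y) : ℂ)⁻¹ *
      ((χ : G → ℂ) y * centralChar (χ : G → ℂ) x * m χ) =
      (p : ℂ) ^ e * (centralChar (χ : G → ℂ) x * (((rdeg p B (χ : G → ℂ) * m χ : ℕ) : ℂ) *
        ((ppr p G : ℕ) : ℂ)⁻¹) * centralChar (χ : G → ℂ) y) := by
    intro χ hχ
    have h0 : (χ : G → ℂ) 1 ≠ 0 := irr_one_ne_zero χ.2
    have hcG : (Nat.card G : ℂ) = (Nat.card (Ce y) : ℂ) * ((Ce y).index : ℂ) := by
      rw [← Nat.cast_mul, Subgroup.card_mul_index]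
    have h1 : (Nat.card (Ce y) : ℂ) ≠ 0 := Nat.cast_ne_zero.2 Nat.card_pos.ne'
    have h3 := card_cast_eq (p := p) hne
    have h4 := irr_one_eq_rdeg hp (mem_bf.1 hχ)
    have hr0 : ((rdeg p B (χ : G → ℂ) : ℕ) : ℂ) ≠ 0 :=
      Nat.cast_ne_zero.2 (rdeg_ne_zero hp (mem_bf.1 hχ))
    have h5 : ((Ce y).index : ℂ) = (p : ℂ) ^ blockDefect p B * (p : ℂ) ^ minv p B *
        (ppr p G : ℂ) * (Nat.card (Ce y) : ℂ)⁻¹ := by
      rw [← h3, hcG]; field_simp
    conv_rhs => rw [show centralChar (χ : G → ℂ) y = ((Ce y).index : ℂ) * (χ : G → ℂ) y /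
      (χ : G → ℂ) 1 from rfl]
    rw [h5, h4, he, pow_add]
    push_cast
    field_simp
  have hl2 : ∀ χ : IrrCharacter G, MemLocalRing M (centralChar (χ : G → ℂ) x *
      (((rdeg p B (χ : G → ℂ) * m χ : ℕ) : ℂ) * ((ppr p G : ℕ) : ℂ)⁻¹) *
        centralChar (χ : G → ℂ) y) := fun χ =>
    lr_mul hM (lr_mul hM (lr_centralChar hM χ.2 x) (lr_mul hM (lr_natCast hM _)
      (lr_inv_nat hM (not_dvd_ppr hp)))) (lr_centralChar hM χ.2 y)
  rw [Finset.mul_sum, Finset.sum_congr rfl key, ← Finset.mul_sum]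
  split_ifs with hD
  · have hdd : blockDefect p B = d := by
      have := card_eq_pow_blockDefect hM hB hD
      rw [hd] at this
      exact (Nat.pow_right_injective hp.two_le this).symm
    have he0 : e = 0 := by omega
    rw [he0, pow_zero, one_mul, red_sum hM fun χ _ => hl2 χ, Nat.cast_sum, Finset.sum_mul,
      Finset.mul_sum, Finset.sum_mul]
    refine Finset.sum_congr rfl fun χ hχ => ?_
    have hn : ¬ MemLocalIdeal M ((ppr p G : ℕ) : ℂ) := by
      rw [li_natCast_iff hM]; exact not_dvd_ppr hp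
    rw [red_mul hM (lr_mul hM (lr_centralChar hM χ.2 x) (lr_mul hM (lr_natCast hM _)
      (lr_inv_nat hM (not_dvd_ppr hp)))) (lr_centralChar hM χ.2 y),
      red_mul hM (lr_centralChar hM χ.2 x) (lr_mul hM (lr_natCast hM _)
      (lr_inv_nat hM (not_dvd_ppr hp))), red_mul hM (lr_natCast hM _)
      (lr_inv_nat hM (not_dvd_ppr hp)), red_inv hM (lr_natCast hM _) hn, red_natCast, red_natCast,
      ← wB_eq hM hB (mem_bf.1 hχ), ← wB_eq hM hB (mem_bf.1 hχ)]
  · have he0 : e ≠ 0 := by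
      rintro rfl
      exact hD (hdef (by omega))
    apply red_eq_zero_of_li
    refine li_mul_right hM ?_ (lr_sum hM fun χ _ => hl2 χ)
    obtain ⟨e', rfl⟩ := Nat.exists_eq_succ_of_ne_zero he0
    rw [pow_succ]
    exact li_mul_left hM (lr_pow hM (lr_natCast hM p) _) (li_p hM)

/-- the blocks with defect group `D`. -/
abbrev DB (p : ℕ) (M : Ideal AlgInt) (D : Subgroup G) : Type _ :=
  {B : Set (IrrCharacter G) // IsPBlock M B ∧ IsDefectGroup p M B D}

noncomputable instance (D : Subgroup G) : Fintype (DB p M D) := Fintype.ofFinite _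

open Classical in
/-- **Robinson's formula**. -/
theorem robinson [Fact p.Prime] (hM : IsPModular p M) (S : Sylow p G) (D : Subgroup G) :
    ∃ t : DB p M D → K hM, (∀ B, t B ≠ 0) ∧ ∀ x y : G, SylIn p D (Ce x) → SylIn p D (Ce y) →
      p ^ ((Nat.card G).factorization p - (Nat.card D).factorization p) ∣ cnt S x y ∧
      ((cnt S x y / p ^ ((Nat.card G).factorization p - (Nat.card D).factorization p) : ℕ) :
        K hM) = ∑ B : DB p M D, wB hM B.1 x⁻¹ * t B * wB hM B.1 y := by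
  have hp : p.Prime := Fact.out
  have hp0 : (p : ℂ) ≠ 0 := Nat.cast_ne_zero.2 hp.ne_zero
  obtain ⟨m, hm⟩ := exists_msum (S : Subgroup G)
  refine ⟨fun B => ((∑ χ ∈ bf B.1, rdeg p B.1 (χ : G → ℂ) * m χ : ℕ) : K hM) *
    ((ppr p G : ℕ) : K hM)⁻¹, fun B => ?_, fun x y hx hy => ?_⟩
  · refine mul_ne_zero ?_ (inv_ne_zero ?_)
    · rw [Ne, CharP.cast_eq_zero_iff (K hM) p]
      exact sum_rdeg_msum hM S hm B.2.1
    · rw [Ne, CharP.cast_eq_zero_iff (K hM) p]
      exact not_dvd_ppr hp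
  obtain ⟨d, hd⟩ := IsPGroup.iff_card.1 hx.isPGroup
  have hx' : SylIn p D (Ce x⁻¹) := by
    rw [show Ce x⁻¹ = Ce x from centralizer_singleton_inv x]; exact hx
  have hdf : (Nat.card D).factorization p = d := by
    rw [hd, Nat.factorization_pow, Finsupp.smul_apply, hp.factorization_self, smul_eq_mul, mul_one]
  have hda : d ≤ (Nat.card G).factorization p := by
    rw [← hp.pow_dvd_iff_le_factorization Nat.card_pos.ne', ← hd]
    exact D.card_subgroup_dvd_card
  obtain ⟨e, he⟩ := Nat.exists_eq_add_of_le hda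
  have hae : (Nat.card G).factorization p - (Nat.card D).factorization p = e := by omega
  rw [hae]
  set z : ℂ := ∑ B ∈ blocks M G, (p : ℂ) ^ d * (Nat.card (Ce y) : ℂ)⁻¹ *
      ∑ χ ∈ bf B, (χ : G → ℂ) y * centralChar (χ : G → ℂ) x⁻¹ * m χ with hz
  have hzl : MemLocalRing M z :=
    lr_sum hM fun B hB => (red_term hM m (mem_blocks.1 hB) hd hx' hy).1
  have hcz : (cnt S x y : ℂ) = (p : ℂ) ^ e * z := by
    rw [cnt_eq_sum_irr _ hm, sum_irr_eq_sum_blocks_bf hM, hz, ← Finset.mul_sum,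
      Sylow.card_eq_multiplicity, he]
    push_cast; ring
  have hdvd : p ^ e ∣ cnt S x y := by
    by_cases h0 : cnt (S : Subgroup G) x y = 0
    · rw [h0]; exact dvd_zero _
    have h1 : MemLocalRing M ((cnt (S : Subgroup G) x y : ℂ) / ((p ^ e : ℕ) : ℂ)) := by
      rw [hcz]; push_cast
      rwa [mul_div_cancel_left₀ _ (pow_ne_zero _ hp0)]
    rw [lr_div_nat_iff hM h0 (pow_ne_zero _ hp.ne_zero), Nat.factorization_pow,
      Finsupp.smul_apply, hp.factorization_self, smul_eq_mul, mul_one] at h1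
    exact (hp.pow_dvd_iff_le_factorization h0).2 h1
  refine ⟨hdvd, ?_⟩
  have h2 : ((cnt (S : Subgroup G) x y / p ^ e : ℕ) : ℂ) = z := by
    rw [Nat.cast_div hdvd (by push_cast; exact pow_ne_zero _ hp0), hcz]
    push_cast
    rw [mul_div_cancel_left₀ _ (pow_ne_zero _ hp0)]
  rw [← red_natCast hM, h2, hz, red_sum hM fun B hB => (red_term hM m (mem_blocks.1 hB) hd hx' hy).1,
    Finset.sum_congr rfl fun B hB => (red_term hM m (mem_blocks.1 hB) hd hx' hy).2,
    ← Finset.sum_filter]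
  exact Finset.sum_subtype _ (fun B => by rw [Finset.mem_filter, mem_blocks]) _

open Classical in
/-- for `D` normal, the central characters of the blocks with defect group `D` on the
`p`-regular classes with defect group `D` have a right inverse. -/
theorem sum_wB_coeff [Fact p.Prime] (hM : IsPModular p M) (D : Subgroup G) [hn : D.Normal]
    {ι : Type*} [Fintype ι] (x : ι → G) (hinj : ∀ i j, IsConj (x i) (x j) → i = j)
    (hall : ∀ g : G, ¬ p ∣ orderOf g → SylIn p D (Ce g) → ∃ i, IsConj (x i) g)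
    (B B' : DB p M D) :
    ∑ i, wB hM B.1 (x i) * (eB hM B'.1).coeff (x i) = if B = B' then 1 else 0 := by
  have := Fintype.ofFinite (ConjClasses G)
  obtain ⟨χ, hχ⟩ := IsPBlock_nonempty hM B.2.1
  have h1 : lam hM (χ : G → ℂ) (eB hM B'.1) = if B = B' then 1 else 0 := by
    split_ifs with h
    · exact lam_eB_of_mem hM B'.2.1 (h ▸ hχ)
    · exact lam_eB_of_notMem hM B'.2.1 fun h' =>
        h (Subtype.ext (block_eq_of_mem hM B.2.1 B'.2.1 hχ h'))
  rw [← h1, lam_apply]
  have hinj' : Function.Injective fun i => ConjClasses.mk (x i) := fun i j h =>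
    hinj i j (ConjClasses.mk_eq_mk_iff_isConj.1 h)
  rw [← Finset.sum_subset (Finset.subset_univ (Finset.univ.image fun i => ConjClasses.mk (x i))),
    Finset.sum_image fun i _ j _ h => hinj' h]
  · refine Finset.sum_congr rfl fun i _ => ?_
    rw [← wB_eq hM B.2.1 hχ, ← wB_eq_of_isConj hM B.2.1 (isConj_crep (x i)),
      ← coeff_eq_of_isConj (eB_mem_Z hM _) (isConj_crep (x i)), mul_comm]
  · intro C _ hC
    by_contra hne
    have ha := left_ne_zero_of_mul hne
    have hb := right_ne_zero_of_mul hne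
    apply hC
    have ha' : ¬ MemLocalIdeal M (blockCoeff B'.1 (crep C)) := fun h =>
      ha ((coeff_eB_eq_zero_iff hM B'.2.1 _).2 h)
    have hb' : ¬ MemLocalIdeal M (centralChar (χ : G → ℂ) (crep C)) := fun h =>
      hb (red_eq_zero_of_li hM h)
    have hcs : ∀ g : G, cS g D = D := fun g =>
      map_conj_eq_of_mem_normalizer (top_le_Nz D (Subgroup.mem_top g))
    obtain ⟨g, hg⟩ := exists_cS_le_Ce hM B.2.1 B.2.2 hχ hb'
    rw [hcs] at hg
    have hs : SylIn p D (Ce (crep C)) := by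
      refine sylIn_of_max hg (isPGroup_of_isDefectGroup B.2.2) fun U hU _ hUC => ?_
      obtain ⟨g', hg'⟩ := le_cS_of_not_li_blockCoeff hM B'.2.1 B'.2.2 ha' hU hUC
      rwa [hcs] at hg'
    obtain ⟨i, hi⟩ := hall _ (not_dvd_orderOf_of_not_li_blockCoeff hM B'.2.1 ha') hs
    exact Finset.mem_image.2 ⟨i, Finset.mem_univ _,
      ((isConj_crep_iff C (x i)).1 hi.symm).symm⟩

end CfsgLib.Block
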