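import Mathlib
import Cfsg.Agent.Lib.Block.Principal
import Cfsg.Agent.Lib.Core.SolvCriteria
import Cfsg.Agent.Lib.Core.Cores

/-!
# Principal blocks for two primes

If the principal `r`-block and the principal `s`-block only share the principal character, then
every `s`-element has a conjugacy class of size prime to `r`.
-/

set_option autoImplicit false

namespace CfsgLib.Block

open Cfsg CfsgLib.Char
open CfsgLib.BrPair (Ce)

variable {G : Type*} [Group G] [Finite G]

theorem index_Ce_eq_of_isConj {x y : G} (h : IsConj x y) : (Ce x).index = (Ce y).index := by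
  have h1 := card_centralizer_eq_of_isConj h
  have h2 := (Ce x).index_mul_card
  have h3 := (Ce y).index_mul_card
  have h4 : 0 < Nat.card (Ce y) := Nat.card_pos
  refine Nat.eq_of_mul_eq_mul_right h4 ?_
  rw [h3, ← h2, h1]

open Classical in
/-- For an `r`-block `A` and an `s`-block `B` and an `s`-element `y` whose class size is divisible
by `r`, the sum of `χ(y⁻¹) χ(1)` over `A ∩ B` lies in the local ideal above `r`. -/
theorem li_sum_inter_of_dvd_index {r s : ℕ} {M N : Ideal AlgInt} (hM : IsPModular r M)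
    (hN : IsPModular s N) {A B : Set (IrrCharacter G)} (hA : IsPBlock M A) (hB : IsPBlock N B)
    {y : G} (hy : ∃ k : ℕ, orderOf y = s ^ k) (hdvd : r ∣ (Ce y).index) :
    MemLocalIdeal M (∑ χ ∈ Finset.univ.filter (fun χ : IrrCharacter G => χ ∈ A ∧ χ ∈ B),
      (χ : G → ℂ) y⁻¹ * (χ : G → ℂ) 1) := by
  have := Fintype.ofFinite G
  have := Fintype.ofFinite (ConjClasses G)
  let θ : G → ℂ := fun g =>
    ∑ χ ∈ Finset.univ.filter (· ∈ B), (χ : G → ℂ) y⁻¹ * (χ : G → ℂ) g
  have hθ : IsClassFunction G θ := fun g h =>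
    Finset.sum_congr rfl fun χ _ => by rw [irr_isClassFunction χ g h]
  have h1 : blockPart A θ 1 = ∑ χ ∈ Finset.univ.filter (fun χ : IrrCharacter G => χ ∈ A ∧ χ ∈ B),
      (χ : G → ℂ) y⁻¹ * (χ : G → ℂ) 1 := by
    rw [blockPart_sum_mul, Finset.sum_filter, Finset.sum_filter]
    refine Finset.sum_congr rfl fun χ _ => ?_
    by_cases hχA : χ ∈ A
    · rw [blockPart_irr_of_mem hχA]; simp [hχA]
    · rw [blockPart_irr_of_notMem hχA]; simp [hχA]
  rw [← h1, blockPart_eq_sum_blockCoeff hθ,
    sum_eq_sum_conjClasses (f := fun k => blockCoeff A k * θ (k * 1)) (fun g h => by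
      simp only [mul_one]
      rw [isClassFunction_blockCoeff A g h, hθ g h])]
  refine li_sum hM fun C _ => ?_
  obtain ⟨x, hx⟩ := exists_isPPart hN.1 (crep C)
  by_cases hc : IsConj x y
  · refine li_mul_right hM ((li_natCast_iff hM _).2 ?_) (lr_mul hM (lr_blockCoeff hM hA _) ?_)
    · rw [← index_Ce_eq_of_isConj hc] at hdvd
      exact hdvd.trans (Subgroup.index_dvd_of_le
        (Ce_le_Ce_of_mem_zpowers (isPPart_mem_zpowers hN.1 hx)))
    · exact lr_sum hM fun χ _ => lr_of_isIntegral hM
        ((isIntegral_char (irr_isCharacter χ) _).mul (isIntegral_char (irr_isCharacter χ) _))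
  · have h2 := block_orth_of_mem_OG hN (blockIdem_mem_OG hN hB) hx (isPPart_self hN.1 hy) hc
    have h3 : θ (crep C * 1) = 0 := by
      rw [mul_one, ← h2]
      exact Finset.sum_congr rfl fun χ _ => mul_comm _ _
    simp only [h3, mul_zero]
    exact li_zero hM

/-- If the principal `r`-block and the principal `s`-block only share the principal character,
every `s`-element has class size prime to `r`. -/
theorem not_dvd_index_Ce_of_principal_inter {r s : ℕ} {M N : Ideal AlgInt} (hM : IsPModular r M)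
    (hN : IsPModular s N)
    (h : ∀ χ : IrrCharacter G, χ ∈ principalBlock M G → χ ∈ principalBlock N G →
      (χ : G → ℂ) = fun _ => 1)
    {y : G} (hy : ∃ k : ℕ, orderOf y = s ^ k) : ¬ r ∣ (Ce y).index := by
  classical
  intro hdvd
  have h1 := li_sum_inter_of_dvd_index hM hN (isPBlock_principalBlock (G := G))
    (isPBlock_principalBlock (G := G)) hy hdvd
  rw [Finset.sum_eq_single (irrOne G)] at h1
  · simp only [irrOne_coe, mul_one] at h1
    exact not_li_one hM h1
  · intro χ hχ hne
    have h2 := (Finset.mem_filter.1 hχ).2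
    exact absurd (Subtype.ext (h χ h2.1 h2.2)) hne
  · intro hn
    exact absurd (Finset.mem_filter.2 ⟨Finset.mem_univ _, irrOne_mem_principalBlock hM,
      irrOne_mem_principalBlock hN⟩) hn

/-- Wielandt: a `p`-element whose class size is a power of `p` lies in `O_p(G)`. -/
theorem mem_pCore_of_index_Ce {p : ℕ} [Fact p.Prime] {x : G} (hx : ∃ k : ℕ, orderOf x = p ^ k)
    (h : ∀ q : ℕ, q.Prime → q ≠ p → ¬ q ∣ (Ce x).index) : x ∈ pCore p G := by
  obtain ⟨Q, hQ⟩ := (isPGroup_zpowers_of_pElt (Fact.out : p.Prime) hx).exists_le_sylow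
  have hcop : (Ce x).index.Coprime (Q : Subgroup G).index := by
    refine Nat.coprime_of_dvd fun q hq h1 h2 => ?_
    by_cases hqp : q = p
    · exact Q.not_dvd_index (hqp ▸ h2)
    · exact h q hq hqp h1
  rw [Core.pCore_eq_normalCore Q]
  intro g
  obtain ⟨k, hk, a, ha, rfl⟩ := (Core.isFactor_of_coprime_index hcop).symm g
  have h1 : a * x * a⁻¹ = x := by
    rw [Subgroup.mem_centralizer_singleton_iff.1 ha, mul_inv_cancel_right]
  have h2 : k * a * x * (k * a)⁻¹ = k * (a * x * a⁻¹) * k⁻¹ := by group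
  rw [h2, h1]
  exact (Q : Subgroup G).mul_mem ((Q : Subgroup G).mul_mem hk (hQ (Subgroup.mem_zpowers x)))
    ((Q : Subgroup G).inv_mem hk)

/-- If a Sylow `p`-subgroup is normal and centralized by all elements of prime power order prime
to `p`, then `G = P × O_{p'}(G)`. -/
theorem sup_pPrimeCore_eq_top_of_index_Ce {p : ℕ} [Fact p.Prime] (P : Sylow p G)
    [(P : Subgroup G).Normal]
    (h : ∀ q : ℕ, q.Prime → q ≠ p → ∀ y : G, (∃ k : ℕ, orderOf y = q ^ k) → ¬ p ∣ (Ce y).index) :
    (P : Subgroup G) ⊔ pPrimeCore p G = ⊤ := by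
  set C := Subgroup.centralizer ((P : Subgroup G) : Set G) with hC
  have hCn : C.Normal := inferInstance
  have h1 : ∀ q : ℕ, q.Prime → q ≠ p → ¬ q ∣ C.index := by
    intro q hq hqp
    have := Fact.mk hq
    obtain ⟨Q⟩ : Nonempty (Sylow q G) := inferInstance
    have hQ : (Q : Subgroup G) ≤ C := by
      intro y hy
      obtain ⟨g, hg⟩ := Core.exists_conj_le_of_not_dvd_index P.isPGroup'
        (h q hq hqp y (pElt_of_mem_isPGroup hq Q.isPGroup' hy))
      intro u hu
      have h2 := hg (‹(P : Subgroup G).Normal›.conj_mem u hu g)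
      rw [Subgroup.mem_pointwise_smul_iff_inv_smul_mem, MulAut.smul_def] at h2
      have h3 : (MulAut.conj g)⁻¹ (g * u * g⁻¹) = u := by
        rw [MulAut.conj_inv_apply]; group
      rw [h3] at h2
      exact Subgroup.mem_centralizer_singleton_iff.1 h2
    exact fun hd => Q.not_dvd_index (hd.trans (Subgroup.index_dvd_of_le hQ))
  obtain ⟨H, hH⟩ := Subgroup.exists_right_complement'_of_coprime P.card_coprime_index
  have hHp : ¬ p ∣ Nat.card H := by
    rw [← hH.symm.index_eq_card]; exact P.not_dvd_index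
  have hHC : H ≤ C := by
    intro x hx
    have hcop : C.index.gcd (orderOf x) = 1 := by
      refine Nat.coprime_of_dvd fun q hq h2 h3 => ?_
      by_cases hqp : q = p
      · exact hHp (hqp ▸ h3.trans (Subgroup.orderOf_dvd_natCard H hx))
      · exact h1 q hq hqp h2
    exact (Subgroup.zpowers_le.2 (C.pow_index_mem x)) (mem_zpowers_pow_iff.2 hcop)
  have hHn : H.Normal := by
    rw [← Subgroup.normalizer_eq_top_iff, eq_top_iff, ← hH.sup_eq_top]
    exact sup_le ((Subgroup.le_centralizer_iff.1 hHC).trans (Subgroup.centralizer_le_normalizer _))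
      Subgroup.le_normalizer
  rw [eq_top_iff, ← hH.sup_eq_top]
  exact sup_le_sup_left (Core.le_pPrimeCore
    ((Nat.Prime.coprime_iff_not_dvd Fact.out).2 hHp).symm) _

end CfsgLib.Block
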